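import Mathlib
import Cfsg.Agent.Lib.Helper4.TIQ.Defs
import Cfsg.Agent.Lib.Helper48.Generation

/-!
# TIQ project (S4151): package [RANK]
-/

set_option autoImplicit false

namespace Cfsg.Agent.Lib.Helper62.TIQ

open Cfsg.Agent.Lib.Helper4.TIQ Cfsg.Agent.Lib.Helper51.TIH

universe u

/-- the closure of two commuting elements is commutative -/
theorem closure_pair_comm {G : Type u} [Group G] (x z : G) (hxz : x * z = z * x) :
    ∀ a ∈ Subgroup.closure ({x, z} : Set G), ∀ b ∈ Subgroup.closure ({x, z} : Set G),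
      a * b = b * a := by
  -- step A: every element of the closure commutes with x and z
  have hA : Subgroup.closure ({x, z} : Set G) ≤ Subgroup.centralizer ({x, z} : Set G) := by
    rw [Subgroup.closure_le]
    intro g hg
    rw [SetLike.mem_coe, Subgroup.mem_centralizer_iff]
    intro h hh
    rcases hg with rfl | hg
    · rcases hh with rfl | hh
      · rfl
      · rw [Set.mem_singleton_iff] at hh; rw [hh]; exact hxz.symm
    · rw [Set.mem_singleton_iff] at hg
      rcases hh with rfl | hh
      · rw [hg]; exact hxz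
      · rw [Set.mem_singleton_iff] at hh; rw [hh, hg]
  intro a ha b hb
  have hB : Subgroup.closure ({x, z} : Set G) ≤ Subgroup.centralizer ({a} : Set G) := by
    rw [Subgroup.closure_le]
    intro g hg
    rw [SetLike.mem_coe, Subgroup.mem_centralizer_iff]
    intro h hh
    rw [Set.mem_singleton_iff] at hh
    rw [hh]
    have := Subgroup.mem_centralizer_iff.mp (hA ha) g hg
    exact this.symm
  have := Subgroup.mem_centralizer_iff.mp (hB hb) a rfl
  exact this

/-- [RANK] `H` has no subgroup `Z_p × Z_p`. -/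
theorem pkgRank : PkgRank.{u} := by
  intro G _ _ H O hO hcop hsemi p _ x z hx hz hxz hxp hzp hind
  have hp : p.Prime := Fact.out
  -- x ≠ 1, z ≠ 1
  have hx1 : x ≠ 1 := by
    intro h
    have := (hind 1 0 (by rw [h]; simp)).1
    exact hp.one_lt.ne' (Nat.dvd_one.mp this)
  have hz1 : z ≠ 1 := by
    intro h
    have := (hind 0 1 (by rw [h]; simp)).2
    exact hp.one_lt.ne' (Nat.dvd_one.mp this)
  -- p ∣ |H|, so p ∤ |O|
  have hordx : orderOf x = p := orderOf_eq_prime hxp hx1
  have hpH : p ∣ Nat.card H := by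
    have h1 : orderOf (⟨x, hx⟩ : H) ∣ Nat.card H := orderOf_dvd_natCard _
    have h2 : orderOf (⟨x, hx⟩ : H) = orderOf x := Subgroup.orderOf_mk x hx
    rw [h2, hordx] at h1
    exact h1
  have hpO : ¬ p ∣ Nat.card O := by
    intro h
    have := Nat.dvd_gcd h hpH
    rw [Nat.Coprime] at hcop
    rw [hcop] at this
    exact hp.one_lt.ne' (Nat.dvd_one.mp this)
  -- U
  have hUH : Subgroup.closure ({x, z} : Set G) ≤ H := by
    rw [Subgroup.closure_le]
    intro g hg
    rcases hg with rfl | hg
    · exact hx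
    · rw [Set.mem_singleton_iff] at hg; rw [hg]; exact hz
  have hcomm := closure_pair_comm x z hxz
  have hexp : ∀ u ∈ Subgroup.closure ({x, z} : Set G), u ^ p = 1 := by
    intro u hu
    induction hu using Subgroup.closure_induction with
    | mem g hg =>
      rcases hg with rfl | hg
      · exact hxp
      · rw [Set.mem_singleton_iff] at hg; rw [hg]; exact hzp
    | one => exact one_pow p
    | mul a b ha hb iha ihb =>
      have hc : Commute a b := hcomm a ha b hb
      rw [hc.mul_pow, iha, ihb, one_mul]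
    | inv a ha iha => rw [inv_pow, iha, inv_one]
  have hxU : x ∈ Subgroup.closure ({x, z} : Set G) := Subgroup.subset_closure (by simp)
  have hzU : z ∈ Subgroup.closure ({x, z} : Set G) := Subgroup.subset_closure (by simp)
  have hnc : ¬ IsCyclic ↥(Subgroup.closure ({x, z} : Set G)) := by
    intro hcyc
    obtain ⟨g, hg⟩ := hcyc.exists_generator
    have hgp : (g : G) ^ p = 1 := hexp g.1 g.2
    have key : ∀ u ∈ Subgroup.closure ({x, z} : Set G), ∃ n : ℕ, (g : G) ^ n = u := by
      intro u hu
      have h1 := hg ⟨u, hu⟩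
      rw [← mem_powers_iff_mem_zpowers, Submonoid.mem_powers_iff] at h1
      obtain ⟨n, hn⟩ := h1
      exact ⟨n, by have := congrArg Subtype.val hn; simpa using this⟩
    obtain ⟨a, ha⟩ := key x hxU
    obtain ⟨b, hb⟩ := key z hzU
    generalize (g : G) = γ at hgp ha hb
    have h1 : x ^ b * z ^ ((p - 1) * a) = 1 := by
      rw [← ha, ← hb, ← pow_mul, ← pow_mul, ← pow_add]
      have : a * b + b * ((p - 1) * a) = p * (a * b) := by
        obtain ⟨k, rfl⟩ : ∃ k, p = k + 1 := ⟨p - 1, by have := hp.one_lt; omega⟩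
        simp only [Nat.add_sub_cancel]
        ring
      rw [this, pow_mul, hgp, one_pow]
    have h2 := (hind _ _ h1).1
    obtain ⟨c, hc⟩ := h2
    apply hz1
    rw [← hb, hc, pow_mul, hgp, one_pow]
  -- normalization
  have hUR : Subgroup.closure ({x, z} : Set G) ≤ Subgroup.normalizer (O : Set G) := by
    intro u _
    rw [Subgroup.mem_normalizer_iff]
    intro g
    constructor
    · intro hg
      exact hO.conj_mem g hg u
    · intro hg
      have h1 := hO.conj_mem _ hg u⁻¹
      have h2 : u⁻¹ * (u * g * u⁻¹) * u⁻¹⁻¹ = g := by group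
      rw [h2] at h1
      exact h1
  have hY : ∀ u ∈ Subgroup.closure ({x, z} : Set G), u ≠ 1 →
      O ⊓ Subgroup.centralizer ({u} : Set G) ≤ O ⊓ Subgroup.centralizer (H : Set G) := by
    intro u hu hu1 y hy
    rw [Subgroup.mem_inf] at hy ⊢
    refine ⟨hy.1, ?_⟩
    rw [Subgroup.mem_centralizer_iff]
    intro h hh
    have h1 : u * y = y * u := Subgroup.mem_centralizer_iff.mp hy.2 u rfl
    exact (hsemi.1 u (hUH hu) hu1 y hy.1 h1.symm h hh).symm
  have hfin := Cfsg.Agent.Lib.Helper48.coprime_generation_le (p := p) O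
    (Subgroup.closure ({x, z} : Set G)) hcomm hexp hnc hpO hUR
    (O ⊓ Subgroup.centralizer (H : Set G)) hY
  obtain ⟨h, hh, y, hy, hne⟩ := hsemi.2
  apply hne
  have h1 := (Subgroup.mem_inf.mp (hfin hy)).2
  exact (Subgroup.mem_centralizer_iff.mp h1 h hh).symm

end Cfsg.Agent.Lib.Helper62.TIQ
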