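import Mathlib
import Cfsg.Agent.Lib.Helper4.TIQ.Defs
import Cfsg.Agent.S0040
import Cfsg.Agent.S0016

/-!
# TIQ project (S4151): package [Z]
-/

set_option autoImplicit false

namespace Cfsg.Agent.Lib.Helper62.TIQ

open Cfsg.Agent.Lib.Helper4.TIQ

universe u

/-- a commutative generalized quaternion group `QuaternionGroup (2 ^ n)` has `n = 0` -/
theorem quat_comm_n (n : ℕ)
    (h : ∀ u v : QuaternionGroup (2 ^ n), u * v = v * u) : n = 0 := by
  have h1 := h (QuaternionGroup.a 1) (QuaternionGroup.xa 0)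
  rw [QuaternionGroup.a_mul_xa, QuaternionGroup.xa_mul_a] at h1
  have h2 : (0 : ZMod (2 * 2 ^ n)) - 1 = 0 + 1 := QuaternionGroup.xa.inj h1
  have h3 : ((2 : ℕ) : ZMod (2 * 2 ^ n)) = 0 := by
    have : (2 : ZMod (2 * 2 ^ n)) = 0 := by linear_combination -h2
    exact_mod_cast this
  rw [ZMod.natCast_eq_zero_iff] at h3
  by_contra hn
  have h4 : 2 * 2 ^ n ≤ 2 := Nat.le_of_dvd (by norm_num) h3
  have h5 : 2 ≤ 2 ^ n := by
    calc 2 = 2 ^ 1 := by norm_num
      _ ≤ 2 ^ n := Nat.pow_le_pow_right (by norm_num) (Nat.one_le_iff_ne_zero.mpr hn)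
  omega

/-- [Z] no `Z_p × Z_p` and abelian Sylow 2-subgroups: a Z-group. -/
theorem pkgZ : PkgZ.{u} := by
  intro H _ _ hno h2
  rw [isZGroup_iff]
  intro p hp P
  have : Fact p.Prime := ⟨hp⟩
  have huniq : ∀ A B : Subgroup ↥(P : Subgroup H), Nat.card A = p → Nat.card B = p → A = B := by
    apply Cfsg.Agent.S0040.unique_of_no_rank_two p P.isPGroup'
    intro x z hxz hxp hzp hind
    apply hno p (x : H) (z : H)
    · exact congrArg Subtype.val hxz
    · exact congrArg Subtype.val hxp
    · exact congrArg Subtype.val hzp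
    · intro i j hij
      apply hind i j
      apply Subtype.ext
      exact hij
  rcases Cfsg.Agent.S0016.result p P.isPGroup' huniq with hc | ⟨hp2, n, ⟨e⟩⟩
  · exact hc
  · subst hp2
    have hcomm : ∀ a b : ↥(P : Subgroup H), a * b = b * a :=
      isMulCommutative_iff.mp (h2 P)
    have hq : ∀ u v : QuaternionGroup (2 ^ n), u * v = v * u := by
      intro u v
      have := hcomm (e.symm u) (e.symm v)
      rw [← map_mul, ← map_mul] at this
      exact e.symm.injective this
    have hn := quat_comm_n n hq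
    subst hn
    have hcyc : IsCyclic (QuaternionGroup (2 ^ 0)) := by
      rw [pow_zero]
      exact QuaternionGroup.quaternionGroup_one_isCyclic
    exact isCyclic_of_surjective e.symm e.symm.surjective

end Cfsg.Agent.Lib.Helper62.TIQ
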